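import Cfsg.Agent.Mult.TData
import Cfsg.Agent.Mult.E
import Cfsg.Agent.Steinb.Fin

set_option autoImplicit false
set_option maxRecDepth 100000

/-!
Schur multipliers from lifted systems.
-/

namespace Cfsg.Agent.Mult

open Cfsg Cfsg.Lie Cfsg.Agent.Chev Cfsg.Agent.Steinb Cfsg.Agent.ChevGrp
open scoped commutatorElement

universe u

/-- check for perfectness -/
def chkPf (D : ChevalleyDatum) (M : ℕ) : Bool :=
  allN D.nroots fun k => !(allN D.rank fun i => !(smB M (cartF D i k)))

/-- perfectness by the torus -/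
theorem perf_torus {D : ChevalleyDatum} {H : Good D} (S : SP D) {F : Type*} [Field F] {Γ : Type*} [Group Γ] (P : PreSt H F Γ)
    (hG : P.Gen) {M : ℕ} (hM : BigF F M) (hc : chkPf D M = true) : commutator Γ = ⊤ := by
  rw [eq_top_iff]
  have h1 : (⊤ : Subgroup Γ) = P.gen (fun _ => True) := hG.symm
  rw [h1, P.gen_le]
  intro k hk _ t
  have h2 := allN_imp hc hk
  rw [Bool.not_eq_true', ← Bool.not_eq_true, allN_iff] at h2
  push Not at h2
  obtain ⟨i, hi, h5⟩ := h2
  rw [ne_eq, Bool.not_eq_true', Bool.not_eq_false, H.cart i hi k hk] at h5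
  obtain ⟨h6, h7⟩ := smB_iff h5
  obtain ⟨c, hc, h8⟩ := hM _ h6 h7
  have h9 := (PreSt.tact_hr (P := P) S hi hc).act k hk ((c ^ D.cartan i k - 1)⁻¹ * t)
  rw [chr_chiH H.toGood1 _ _ hk, pr_simple H.toGood1 hi] at h9
  have h0 : c ^ D.cartan i k - 1 ≠ 0 := sub_ne_zero.2 h8
  have e : P.x k t = ⁅P.hr (D.simple i) c, P.x k ((c ^ D.cartan i k - 1)⁻¹ * t)⁆ := by
    rw [commutatorElement_def, h9, ← P.x_neg hk, P.add hk]
    congr 1
    simp only [Units.val_zpow_eq_zpow_val, Units.val_mk0]
    rw [← sub_eq_add_neg, ← sub_one_mul, mul_inv_cancel_left₀ h0]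
  rw [e, commutator_def]
  exact Subgroup.commutator_mem_commutator (Subgroup.mem_top _) (Subgroup.mem_top _)

theorem multiplier_of {D : ChevalleyDatum} (hD : D ∈ data) {F : Type u} [Field F] [Finite F]
    (hperf : commutator (D.SteinbergGroup F) = ⊤)
    (hpre : ∀ (Γ : Type u) [Group Γ] (σ : Γ →* ↥(D.group F)), CE σ →
      ∃ P : PreSt (good_of_mem hD) F Γ, P.θ = (D.group F).subtype.comp σ)
    {n : ℕ} (hn : Nat.card (Subgroup.center (D.SteinbergGroup F)) = n) (h : n = 1 ∨ n.Prime) :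
    HasCyclicSchurMultiplier ↥(D.group F) n := by
  obtain ⟨e⟩ := exists_equiv hn h
  have hfin : Finite (Subgroup.center (D.SteinbergGroup F)) :=
    Nat.finite_of_card_ne_zero (by rcases h with h | h; exacts [by omega, by have := h.pos; omega])
  refine hasSchurMultiplier_of hD hfin hperf (fun Γ _ σ C => ?_) e
  obtain ⟨P, hP⟩ := hpre Γ σ C
  exact ⟨P, hP, fun r hr t u ht hu => P.r3_of_finite (sp_of_mem hD) r hr ht hu⟩

theorem chkPf_G2 : chkPf chevG2 3 = true := by decide +kernel
theorem chkPf_D4 : chkPf chevD4 1 = true := by decide +kernel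
theorem chkPf_F4 : chkPf chevF4 1 = true := by decide +kernel

lemma finset_of_card {F : Type*} [Fintype F] {n : ℕ} (h : n < Fintype.card F) : ∃ s : Finset F, n < s.card :=
  ⟨Finset.univ, by rwa [Finset.card_univ]⟩

/-- the canonical system on the Steinberg group -/
noncomputable def stP {D : ChevalleyDatum} (H : Good D) (F : Type*) [Field F] : PreSt H F (D.SteinbergGroup F) :=
  preOf H (D.steinbergRels F) (relsAB_sub D F) (fX_rels H)

lemma stP_gen {D : ChevalleyDatum} (H : Good D) (F : Type*) [Field F] : (stP H F).Gen :=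
  preOf_gen H (D.steinbergRels F) _ _

end Cfsg.Agent.Mult
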