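import Cfsg.Agent.Steinb.Pre

set_option autoImplicit false

/-!
Root elements satisfying (R1) in a central extension: the commutator relations (R2) follow if bimultiplicative
defects can be killed.
-/

namespace Cfsg.Agent.Mult

open Cfsg.Lie Cfsg.Agent.Chev Cfsg.Agent.Steinb Matrix

/-- root elements satisfying (R1) -/
structure PX {D : ChevalleyDatum} (H : Good D) (F : Type*) [Field F] (Γ : Type*) [Group Γ] where
  x : ℕ → F → Γ
  add : ∀ {r : ℕ}, r < D.nroots → ∀ t u : F, x r t * x r u = x r (t + u)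
  θ : Γ →* GL D.Idx F
  θ_x : ∀ {r : ℕ}, r < D.nroots → ∀ t : F, θ (x r t) = xU H.toGood2 r t

/-- the tautological system -/
noncomputable def taut {D : ChevalleyDatum} (H : Good D) (F : Type*) [Field F] : PreSt H F (GL D.Idx F) where
  x r t := xU H.toGood2 r t
  add := by
    intro r hr t u
    apply Units.ext
    rw [Units.val_mul]
    exact (x_add H.toGood2 hr t u)
  comm := by
    intro r s hr hs h1 h2 t u
    have h3 := H.comm (F := F) hr hs h1 h2 t u
    have h4 : ∀ w : List (ℕ × F), (((w.map fun p => xU H.toGood2 p.1 p.2).prod : GL D.Idx F) : Matrix D.Idx D.Idx F) =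
        D.wordMat F w := by
      intro w
      induction w with
      | nil => simp [ChevalleyDatum.wordMat]
      | cons p w ih =>
        rw [List.map_cons, List.prod_cons, Units.val_mul, ih]
        simp [ChevalleyDatum.wordMat, xU]
    have h5 : xU H.toGood2 s u * xU H.toGood2 r t = xU H.toGood2 r t * xU H.toGood2 s u *
        ((D.commWord F r s t u).map fun p => xU H.toGood2 p.1 p.2).prod := by
      apply Units.ext
      rw [Units.val_mul, Units.val_mul, Units.val_mul, h4]
      exact h3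
    rw [mul_assoc, h5]
    group
  θ := MonoidHom.id _
  θ_x := by intro r hr t; rfl

namespace PX

variable {D : ChevalleyDatum} {H : Good D} {F : Type*} [Field F] {Γ : Type*} [Group Γ] (P : PX H F Γ)

lemma x_zero {r : ℕ} (hr : r < D.nroots) : P.x r 0 = 1 := by
  have := P.add hr 0 0
  rw [add_zero] at this
  exact mul_eq_left.1 this

lemma x_neg {r : ℕ} (hr : r < D.nroots) (t : F) : P.x r (-t) = (P.x r t)⁻¹ := by
  rw [eq_inv_iff_mul_eq_one, P.add hr, neg_add_cancel, P.x_zero hr]

lemma θ_coe {r : ℕ} (hr : r < D.nroots) (t : F) : ((P.θ (P.x r t) : GL D.Idx F) : Matrix D.Idx D.Idx F) = D.x F r t := by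
  rw [P.θ_x hr]; rfl

/-- the subgroup generated by the root elements of the roots satisfying `p` -/
def gen (p : ℕ → Prop) : Subgroup Γ := Subgroup.closure {g | ∃ (r : ℕ) (t : F), r < D.nroots ∧ p r ∧ g = P.x r t}

lemma mem_gen {p : ℕ → Prop} {r : ℕ} (hr : r < D.nroots) (hp : p r) (t : F) : P.x r t ∈ P.gen p :=
  Subgroup.subset_closure ⟨r, t, hr, hp, rfl⟩

lemma gen_mono {p q : ℕ → Prop} (h : ∀ r < D.nroots, p r → q r) : P.gen p ≤ P.gen q := by
  apply Subgroup.closure_mono
  rintro g ⟨r, t, hr, hp, rfl⟩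
  exact ⟨r, t, hr, h r hr hp, rfl⟩

lemma gen_le {p : ℕ → Prop} {K : Subgroup Γ} : P.gen p ≤ K ↔ ∀ r < D.nroots, p r → ∀ t, P.x r t ∈ K := by
  unfold gen
  rw [Subgroup.closure_le]
  constructor
  · intro h r hr hp t; exact h ⟨r, t, hr, hp, rfl⟩
  · rintro h g ⟨r, t, hr, hp, rfl⟩; exact h r hr hp t

lemma gen_induction {p : ℕ → Prop} {Q : Γ → Prop} (one : Q 1)
    (mul : ∀ s < D.nroots, p s → ∀ u, ∀ g ∈ P.gen p, Q g → Q (P.x s u * g)) : ∀ g ∈ P.gen p, Q g := by
  intro g hg
  unfold gen at hg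
  induction hg using Subgroup.closure_induction_left with
  | one => exact one
  | mul_left y hy z hz ih =>
    obtain ⟨s, u, hs, hp, rfl⟩ := hy
    exact mul s hs hp u z hz ih
  | inv_mul_cancel y hy z hz ih =>
    obtain ⟨s, u, hs, hp, rfl⟩ := hy
    rw [← P.x_neg hs]
    exact mul s hs hp (-u) z hz ih

/-- words -/
def wd (w : List (ℕ × F)) : Γ := (w.map fun p => P.x p.1 p.2).prod

@[simp] lemma wd_nil : P.wd [] = 1 := rfl
@[simp] lemma wd_cons (a : ℕ × F) (w : List (ℕ × F)) : P.wd (a :: w) = P.x a.1 a.2 * P.wd w := by simp [wd]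

lemma wd_mem {K : Subgroup Γ} {w : List (ℕ × F)} (h : ∀ p ∈ w, P.x p.1 p.2 ∈ K) : P.wd w ∈ K := by
  induction w with
  | nil => exact one_mem _
  | cons a w ih => rw [wd_cons]; exact mul_mem (h a (by simp)) (ih fun p hp => h p (by simp [hp]))

lemma commWord_mem {p : ℕ → Prop} {r s : ℕ} (h : ∀ c ∈ D.commTerms r s, c.1 < D.nroots ∧ p c.1) (t u : F) :
    P.wd (D.commWord F r s t u) ∈ P.gen p := by
  apply P.wd_mem
  intro q hq
  unfold ChevalleyDatum.commWord at hq
  obtain ⟨c, hc, rfl⟩ := List.mem_map.1 hq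
  exact P.mem_gen (h c hc).1 (h c hc).2 _

/-- the commutator -/
def com (r s : ℕ) (t u : F) : Γ := (P.x s u)⁻¹ * (P.x r t)⁻¹ * P.x s u * P.x r t

/-- the relation (R2) for a pair of roots -/
def R2 (r s : ℕ) : Prop := ∀ t u : F, P.com r s t u = P.wd (D.commWord F r s t u)

/-- the defect of (R2) -/
def defect (r s : ℕ) (t u : F) : Γ := P.com r s t u * (P.wd (D.commWord F r s t u))⁻¹

variable {P}

lemma R2.conj_x {r s : ℕ} (h : P.R2 r s) (t u : F) :
    (P.x r t)⁻¹ * P.x s u * P.x r t = P.x s u * P.wd (D.commWord F r s t u) := by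
  rw [← h, com]; group

variable (P)

/-- a root element normalizes the subgroup generated by a suitable set of root elements -/
lemma conj_gen {p : ℕ → Prop} {a : ℕ}
    (h : ∀ s < D.nroots, p s → P.R2 a s ∧ ∀ c ∈ D.commTerms a s, c.1 < D.nroots ∧ p c.1) (t : F) :
    ∀ g ∈ P.gen p, (P.x a t)⁻¹ * g * P.x a t ∈ P.gen p := by
  refine P.gen_induction (Q := fun g => (P.x a t)⁻¹ * g * P.x a t ∈ P.gen p) ?_ ?_
  · simp
  · intro s hs hp u g hg ih
    obtain ⟨h1, h3⟩ := h s hs hp
    have e : (P.x a t)⁻¹ * (P.x s u * g) * P.x a t = ((P.x a t)⁻¹ * P.x s u * P.x a t) * ((P.x a t)⁻¹ * g * P.x a t) := by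
      group
    rw [e, h1.conj_x]
    exact mul_mem (mul_mem (P.mem_gen hs hp u) (P.commWord_mem h3 t u)) ih

/-- `θ` maps generated subgroups to generated subgroups -/
lemma θ_gen {p : ℕ → Prop} : ∀ g ∈ P.gen p, P.θ g ∈ (taut H F).gen p := by
  refine P.gen_induction (Q := fun g => P.θ g ∈ (taut H F).gen p) ?_ ?_
  · rw [map_one]; exact one_mem _
  · intro s hs hp u g hg ih
    rw [map_mul, P.θ_x hs]
    exact mul_mem ((taut H F).mem_gen hs hp u) ih

lemma θ_wd : ∀ w : List (ℕ × F), (∀ p ∈ w, p.1 < D.nroots) → P.θ (P.wd w) = (taut H F).wd w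
  | [], _ => by simp
  | p :: w, h => by
      rw [wd_cons, map_mul, PreSt.wd_cons, P.θ_x (h p (by simp)), θ_wd w (fun q hq => h q (by simp [hq]))]
      rfl

include H in
lemma commWord_lt {r s : ℕ} (hr : r < D.nroots) (hs : s < D.nroots) (h1 : s ≠ r) (h2 : s ≠ D.neg r) (t u : F) :
    ∀ p ∈ D.commWord F r s t u, p.1 < D.nroots := by
  intro p hp
  unfold ChevalleyDatum.commWord at hp
  obtain ⟨c, hc, rfl⟩ := List.mem_map.1 hp
  exact ((H.pairOK hr hs h1 h2).terms c hc).1

lemma θ_defect {r s : ℕ} (hr : r < D.nroots) (hs : s < D.nroots) (h1 : s ≠ r) (h2 : s ≠ D.neg r) (t u : F) :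
    P.θ (P.defect r s t u) = 1 := by
  have h3 := (taut H F).comm hr hs h1 h2 t u
  have h4 : P.θ (P.com r s t u) = (taut H F).wd (D.commWord F r s t u) := by
    unfold com
    rw [map_mul, map_mul, map_mul, map_inv, map_inv, P.θ_x hr, P.θ_x hs]
    exact h3
  unfold defect
  rw [map_mul, map_inv, h4, P.θ_wd _ (commWord_lt (H := H) hr hs h1 h2 t u), mul_inv_cancel]

variable {P}

lemma R2_of_defect {r s : ℕ} (h : ∀ t u : F, P.defect r s t u = 1) : P.R2 r s := by
  intro t u
  exact mul_inv_eq_one.1 (h t u)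

variable (P)

lemma exists_mul {κ : ℕ → ℤ} (K : KF D κ) {k : ℕ} (hk : k < D.nroots) (hk0 : 0 < κ k)
    (hR : ∀ s < D.nroots, κ k + 1 ≤ κ s → P.R2 k s) :
    ∀ g ∈ P.gen (fun r => κ k ≤ κ r), ∃ t : F, ∃ v ∈ P.gen (fun r => κ k + 1 ≤ κ r), g = P.x k t * v := by
  refine P.gen_induction (Q := fun g => ∃ t : F, ∃ v ∈ P.gen (fun r => κ k + 1 ≤ κ r), g = P.x k t * v) ?_ ?_
  · exact ⟨0, 1, one_mem _, by rw [P.x_zero hk, one_mul]⟩
  · rintro s hs hp u g hg ⟨t, v, hv, rfl⟩
    by_cases h1 : s = k
    · subst h1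
      exact ⟨u + t, v, hv, by rw [← mul_assoc, P.add hs]⟩
    · have h2 : κ k + 1 ≤ κ s := by
        have : κ s ≠ κ k := fun h => h1 (K.inj hs hk h)
        omega
      refine ⟨t, (P.x k t)⁻¹ * P.x s u * P.x k t * v, mul_mem ?_ hv, by group⟩
      refine P.conj_gen (p := fun r => κ k + 1 ≤ κ r) ?_ t _ (P.mem_gen hs h2 u)
      intro s' hs' hp'
      have h3 : s' ≠ k := by rintro rfl; omega
      have h4 : s' ≠ D.neg k := by
        rintro rfl
        have := K.neg H.toGood1 hk
        omega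
      refine ⟨hR s' hs' hp', fun c hc => ?_⟩
      obtain ⟨c1, c2, c3, c4⟩ := K.terms H hk hs' h3 h4 hc
      have c2' : (1 : ℤ) ≤ c.2.2.1 := by exact_mod_cast c2
      have c3' : (1 : ℤ) ≤ c.2.2.2 := by exact_mod_cast c3
      refine ⟨c1, ?_⟩
      show κ k + 1 ≤ κ c.1
      rw [c4]; nlinarith

lemma exists_bound (κ : ℕ → ℤ) (n : ℕ) : ∃ M : ℤ, ∀ r < n, κ r < M := by
  induction n with
  | zero => exact ⟨0, fun r hr => absurd hr (Nat.not_lt_zero r)⟩
  | succ n ih =>
    obtain ⟨M, hM⟩ := ih
    refine ⟨max M (κ n + 1), fun r hr => ?_⟩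
    rcases Nat.lt_succ_iff_lt_or_eq.1 hr with h | rfl
    · exact lt_of_lt_of_le (hM r h) (le_max_left _ _)
    · exact lt_of_lt_of_le (by omega) (le_max_right _ _)

/-- the homomorphism to matrices is injective on the subgroup generated by the root elements with large value -/
theorem inj_of_large {κ : ℕ → ℤ} (K : KF D κ) {m0 : ℤ} (hm0 : 1 ≤ m0)
    (hR : ∀ r < D.nroots, ∀ s < D.nroots, m0 ≤ κ r → m0 ≤ κ s → s ≠ r → P.R2 r s) :
    ∀ g ∈ P.gen (fun r => m0 ≤ κ r), P.θ g = 1 → g = 1 := by
  obtain ⟨M, hM⟩ := exists_bound κ D.nroots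
  have key : ∀ d : ℕ, ∀ m : ℤ, m0 ≤ m → M - m ≤ d → ∀ g ∈ P.gen (fun r => m ≤ κ r), P.θ g = 1 → g = 1 := by
    intro d
    induction d with
    | zero =>
      intro m _ hmd g hg _
      have : P.gen (fun r => m ≤ κ r) ≤ ⊥ := by
        rw [P.gen_le]
        intro r hr hp
        have := hM r hr
        push_cast at hmd
        omega
      exact Subgroup.mem_bot.1 (this hg)
    | succ d ih =>
      intro m hm hmd g hg hθ
      have ih' := ih (m + 1) (by omega) (by push_cast at hmd; omega)
      by_cases hk : ∃ k < D.nroots, κ k = m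
      · obtain ⟨k, hk, rfl⟩ := hk
        obtain ⟨t, v, hv, rfl⟩ := P.exists_mul K hk (by omega) (fun s hs hs' => hR k hk s hs hm (by omega)
          (by rintro rfl; omega)) g hg
        have h1 := (taut H F).fix_of_mem K hk (by omega) _ (P.θ_gen v hv)
        obtain ⟨i, hi, hne⟩ := exists_cc_ne (F := F) H k hk
        have h2 := entry_eq K H hk (by omega) t h1 ⟨i, hi⟩
        have h3 : D.x F k t *ᵥ ((((taut H F).θ (P.θ v) : GL D.Idx F) : Matrix D.Idx D.Idx F) *ᵥ eB D F (D.neg k)) =
            eB D F (D.neg k) := by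
          show D.x F k t *ᵥ (((P.θ v : GL D.Idx F) : Matrix D.Idx D.Idx F) *ᵥ eB D F (D.neg k)) = eB D F (D.neg k)
          rw [Matrix.mulVec_mulVec, ← P.θ_coe hk, ← Units.val_mul, ← map_mul, hθ, Units.val_one, Matrix.one_mulVec]
        rw [h3, eB_apply_inl] at h2
        have h4 : t = 0 := by
          rcases mul_eq_zero.1 h2.symm with h | h
          · exact h
          · exact absurd h hne
        subst h4
        rw [P.x_zero hk, one_mul] at hθ ⊢
        exact ih' v hv hθ
      · refine ih' g (P.gen_mono ?_ hg) hθ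
        intro r hr hp
        have : κ r ≠ m := fun h => hk ⟨r, hr, h⟩
        omega
  intro g hg hθ
  exact key (M - m0).toNat m0 le_rfl (Int.self_le_toNat _) g hg hθ

/-- bimultiplicative defects vanish -/
def Kill (r s : ℕ) : Prop :=
  (∀ t t' u : F, P.defect r s (t + t') u = P.defect r s t u * P.defect r s t' u) →
  (∀ t u u' : F, P.defect r s t (u + u') = P.defect r s t u * P.defect r s t u') →
  ∀ t u : F, P.defect r s t u = 1

/-- (R2) for the roots positive for a regular functional -/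
theorem R2_pos (hker : P.θ.ker ≤ Subgroup.center Γ) {κ : ℕ → ℤ} (K : KF D κ)
    (hkill : ∀ r < D.nroots, ∀ s < D.nroots, s ≠ r → s ≠ D.neg r → P.Kill r s) :
    ∀ r < D.nroots, ∀ s < D.nroots, 0 < κ r → 0 < κ s → s ≠ r → P.R2 r s := by
  obtain ⟨M, hM⟩ := exists_bound κ D.nroots
  have key : ∀ d : ℕ, ∀ r < D.nroots, ∀ s < D.nroots, 0 < κ r → 0 < κ s → s ≠ r → 2 * M - (κ r + κ s) ≤ d → P.R2 r s := by
    intro d
    induction d with
    | zero =>
      intro r hr s hs _ _ _ h
      have := hM r hr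
      have := hM s hs
      push_cast at h
      omega
    | succ d ih =>
      intro r hr s hs hr0 hs0 hsr hd
      push_cast at hd
      have hneg : ∀ {a b : ℕ}, a < D.nroots → 0 < κ a → 0 < κ b → b ≠ D.neg a := by
        rintro a b ha ha0 hb0 rfl
        have := K.neg H.toGood1 ha
        omega
      have hN : ∀ g ∈ P.gen (fun k => κ r + κ s ≤ κ k), P.θ g = 1 → g = 1 := by
        apply P.inj_of_large K (by omega)
        intro a ha b hb ha' hb' hba
        exact ih a ha b hb (by omega) (by omega) hba (by omega)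
      have hN' : ∀ {g g' : Γ}, g ∈ P.gen (fun k => κ r + κ s ≤ κ k) → g' ∈ P.gen (fun k => κ r + κ s ≤ κ k) →
          P.θ g = P.θ g' → g = g' := by
        intro g g' hg hg' h
        have := hN (g * g'⁻¹) (mul_mem hg (inv_mem hg')) (by rw [map_mul, map_inv, h, mul_inv_cancel])
        exact mul_inv_eq_one.1 this
      have hnorm : ∀ a < D.nroots, 0 < κ a → (κ a = κ r ∨ κ a = κ s) → ∀ t : F, ∀ g ∈ P.gen (fun k => κ r + κ s ≤ κ k),
          (P.x a t)⁻¹ * g * P.x a t ∈ P.gen (fun k => κ r + κ s ≤ κ k) := by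
        intro a ha ha0 ha' t
        apply P.conj_gen
        intro k hk hk'
        have hka : k ≠ a := by rintro rfl; omega
        refine ⟨ih a ha k hk ha0 (by omega) hka (by omega), fun c hc => ?_⟩
        obtain ⟨c1, c2, c3, c4⟩ := K.terms H ha hk hka (hneg ha ha0 (by omega)) hc
        have c2' : (1 : ℤ) ≤ c.2.2.1 := by exact_mod_cast c2
        have c3' : (1 : ℤ) ≤ c.2.2.2 := by exact_mod_cast c3
        refine ⟨c1, ?_⟩
        show κ r + κ s ≤ κ c.1
        rw [c4]; nlinarith
      have hw : ∀ t u : F, P.wd (D.commWord F r s t u) ∈ P.gen (fun k => κ r + κ s ≤ κ k) := by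
        intro t u
        apply P.commWord_mem
        intro c hc
        obtain ⟨c1, c2, c3, c4⟩ := K.terms H hr hs hsr (hneg hr hr0 hs0) hc
        have c2' : (1 : ℤ) ≤ c.2.2.1 := by exact_mod_cast c2
        have c3' : (1 : ℤ) ≤ c.2.2.2 := by exact_mod_cast c3
        refine ⟨c1, ?_⟩
        show κ r + κ s ≤ κ c.1
        rw [c4]; nlinarith
      have hdef : ∀ t u : F, P.θ (P.defect r s t u) = 1 := P.θ_defect hr hs hsr (hneg hr hr0 hs0)
      have hcen : ∀ t u : F, ∀ g : Γ, g * P.defect r s t u = P.defect r s t u * g := by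
        intro t u g
        exact Subgroup.mem_center_iff.1 (hker ((MonoidHom.mem_ker).2 (hdef t u))) g
      have hcom : ∀ t u : F, P.com r s t u = P.defect r s t u * P.wd (D.commWord F r s t u) := by
        intro t u; unfold defect; group
      have hθw : ∀ t u : F, P.θ (P.com r s t u) = P.θ (P.wd (D.commWord F r s t u)) := by
        intro t u; rw [hcom, map_mul, hdef, one_mul]
      apply R2_of_defect
      apply hkill r hr s hs hsr (hneg hr hr0 hs0)
      · intro t t' u
        have h1 : P.com r s (t + t') u = P.com r s t' u * ((P.x r t')⁻¹ * P.com r s t u * P.x r t') := by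
          unfold com
          rw [← P.add hr]; group
        have h2 : P.wd (D.commWord F r s (t + t') u) = P.wd (D.commWord F r s t' u) *
            ((P.x r t')⁻¹ * P.wd (D.commWord F r s t u) * P.x r t') := by
          apply hN' (hw _ _) (mul_mem (hw _ _) (hnorm r hr hr0 (Or.inl rfl) t' _ (hw _ _)))
          rw [← hθw, h1]
          simp only [map_mul, map_inv]
          rw [← hθw, ← hθw]
        have h3 : (P.x r t')⁻¹ * P.com r s t u * P.x r t' =
            P.defect r s t u * ((P.x r t')⁻¹ * P.wd (D.commWord F r s t u) * P.x r t') := by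
          rw [hcom, ← mul_assoc, hcen]; group
        have h4 : P.defect r s (t + t') u = P.com r s (t + t') u * (P.wd (D.commWord F r s (t + t') u))⁻¹ := rfl
        rw [h4, h1, h2, h3, hcom t' u]
        have h5 := hcen t u (P.wd (D.commWord F r s t' u))
        calc _ = P.defect r s t' u * (P.wd (D.commWord F r s t' u) * P.defect r s t u) *
              ((P.x r t')⁻¹ * P.wd (D.commWord F r s t u) * P.x r t') *
              ((P.wd (D.commWord F r s t' u)) * ((P.x r t')⁻¹ * P.wd (D.commWord F r s t u) * P.x r t'))⁻¹ := by group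
          _ = P.defect r s t' u * P.defect r s t u := by rw [h5]; group
          _ = _ := hcen t u _
      · intro t u u'
        have h1 : P.com r s t (u + u') = ((P.x s u')⁻¹ * P.com r s t u * P.x s u') * P.com r s t u' := by
          unfold com
          rw [← P.add hs]; group
        have h2 : P.wd (D.commWord F r s t (u + u')) = ((P.x s u')⁻¹ * P.wd (D.commWord F r s t u) * P.x s u') *
            P.wd (D.commWord F r s t u') := by
          apply hN' (hw _ _) (mul_mem (hnorm s hs hs0 (Or.inr rfl) u' _ (hw _ _)) (hw _ _))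
          rw [← hθw, h1]
          simp only [map_mul, map_inv]
          rw [← hθw, ← hθw]
        have h3 : (P.x s u')⁻¹ * P.com r s t u * P.x s u' =
            P.defect r s t u * ((P.x s u')⁻¹ * P.wd (D.commWord F r s t u) * P.x s u') := by
          rw [hcom, ← mul_assoc, hcen]; group
        have h4 : P.defect r s t (u + u') = P.com r s t (u + u') * (P.wd (D.commWord F r s t (u + u')))⁻¹ := rfl
        rw [h4, h1, h2, h3, hcom t u', _root_.mul_inv_rev]
        have h5 := hcen t u' ((P.x s u')⁻¹ * P.wd (D.commWord F r s t u) * P.x s u')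
        calc _ = P.defect r s t u * (((P.x s u')⁻¹ * P.wd (D.commWord F r s t u) * P.x s u') * P.defect r s t u') *
              P.wd (D.commWord F r s t u') * ((P.wd (D.commWord F r s t u'))⁻¹ *
              ((P.x s u')⁻¹ * P.wd (D.commWord F r s t u) * P.x s u')⁻¹) := by group
          _ = _ := by rw [h5]; group
  intro r hr s hs hr0 hs0 hsr
  exact key (2 * M - (κ r + κ s)).toNat r hr s hs hr0 hs0 hsr (Int.self_le_toNat _)

end PX

end Cfsg.Agent.Mult
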