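import Cfsg.Agent.Mult.TLift

set_option autoImplicit false
set_option maxRecDepth 100000

/-!
Torus certificates for G2, F4, D4 and the lifted systems.
-/

namespace Cfsg.Agent.Mult

open Cfsg.Lie Cfsg.Agent.Chev Cfsg.Agent.ChevTw Cfsg.Agent.ChevGrp Cfsg.Agent.Steinb
open scoped commutatorElement

/-- decomposition -/
def decOK (D : ChevalleyDatum) (k a b : ℕ) : Bool :=
  Nat.blt a D.nroots && (Nat.blt b D.nroots && (!(Nat.beq b a) && (!(Nat.beq (Nat.succ (Nat.add b a)) D.nroots) &&
    (decB D k a b && (cpB D a k && cpB D b k)))))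

lemma dec_of_ok {D : ChevalleyDatum} (H : Good D) {k a b : ℕ} (hk : k < D.nroots) (h : decOK D k a b = true) : Dec D k a b := by
  unfold decOK at h
  simp only [Bool.and_eq_true] at h
  obtain ⟨h1, h2, h3, h4, h5, h6, h7⟩ := h
  have ha := blt_lt h1
  have hb := blt_lt h2
  refine ⟨ha, hb, hk, ?_, ?_, ?_, CP_of_chk H.toGood1 ha hk h6, CP_of_chk H.toGood1 hb hk h7⟩
  · rintro rfl
    rw [show Nat.beq b b = true from Nat.beq_eq ▸ rfl] at h3
    simp at h3
  · intro e
    rw [H.neg_eq a ha] at e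
    rw [Bool.not_eq_true', ← Bool.not_eq_true] at h4
    apply h4
    rw [Nat.beq_eq]
    show Nat.succ (b + a) = D.nroots
    omega
  · unfold decB at h5
    rw [Bool.or_eq_true, decide_eq_true_eq, decide_eq_true_eq] at h5
    rcases h5 with h5 | h5
    · exact ⟨1, Or.inl rfl, h5⟩
    · exact ⟨-1, Or.inr rfl, h5⟩

/-- base check -/
def baseQ (D : ChevalleyDatum) (M : ℕ) (dec : List (ℕ × ℕ)) (sw : List (List ℕ)) (r s : ℕ) : Bool :=
  !(cpB D r s) || ((!(Nat.beq s r) && torB D M r s) || ((dec.any fun p => decOK D s p.1 p.2 && (cpB D r p.1 && cpB D r p.2)) ||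
    (sw.any fun l => (l.all fun i => Nat.blt i D.rank) && (Nat.beq (wl D l r) s && (Nat.beq (wl D l s) r &&
      zeq (el D l r * el D l s) 1)))))

/-- check of the commuting pairs -/
def chkQ (D : ChevalleyDatum) (M : ℕ) (dec : List (ℕ × ℕ)) (sw : List (List ℕ)) : Bool :=
  allN D.nroots fun r => domd D r || allN D.nroots fun s =>
      !(allN D.rank fun i => !(Nat.beq (wv (wP D i) r) r && Nat.blt s (wv (wP D i) s))) || baseQ D M dec sw r s

/-- general check with parameter `M` -/
def chkT (D : ChevalleyDatum) (M : ℕ) : Bool :=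
  allP D (indB D) && (allN D.nroots (torX D 1) && allP D (torB D M))

/-- check for three elements -/
def chkT3 (D : ChevalleyDatum) : Bool :=
  allP D (indB D) && (allN D.nroots (torX D 1) && allP D (fun r s => torB D 1 r s || cpB D r s))

section

variable {D : ChevalleyDatum} {H : Good D} {F : Type*} [Field F] {Γ : Type*} [Group Γ] {σ : Γ →* ↥(D.group F)} (C : CE σ)

theorem trR_of_chk (hl : Len2 D) {M : ℕ} (hM : BigF F M) {dec : List (ℕ × ℕ)} {sw : List (List ℕ)}
    (hsw : sw = [] ∨ ((3 : F) = 0 ∧ ∀ t : F, t = 0 ∨ t = 1 ∨ t = -1))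
    (hc : chkQ D M dec sw = true) {r s : ℕ} (h : CP D r s) : TrR H C r s := by
  refine pair_ind2 (P := fun r s => CP D r s → TrR H C r s) H.toGood1 (baseQ D M dec sw) ?_ hc ?_ r h.1 s h.2.1 h
  · intro i hi r hr s hs ih h
    exact TrR_w H C hi hr hs (ih (CP_w H.toGood2 hl hi h))
  · intro r hr s hs hb h
    unfold baseQ at hb
    rw [cpB_of_CP H.toGood1 h, Bool.not_true, Bool.false_or, Bool.or_eq_true, Bool.or_eq_true] at hb
    rcases hb with hb | hb | hb
    · rw [Bool.and_eq_true] at hb
      have h1 : s ≠ r := by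
        rintro rfl
        rw [show Nat.beq s s = true from Nat.beq_eq ▸ rfl] at hb
        simp at hb
      obtain ⟨γ, hγ, c, hc, ⟨h2, h3⟩ | ⟨h2, h3⟩⟩ := torB_F H hM hr hs hb.2
      · exact TrR_torus H C h hγ hc h2 h3
      · exact TrR_torus' H C h hγ hc h2 h3
    · rw [List.any_eq_true] at hb
      obtain ⟨⟨a, b⟩, -, h1⟩ := hb
      simp only [Bool.and_eq_true] at h1
      obtain ⟨h2, h5, h6⟩ := h1
      have hd := dec_of_ok H hs h2
      exact TrR_dec H C hd (CP_of_chk H.toGood1 hr hd.ha h5) (CP_of_chk H.toGood1 hr hd.hb h6)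
    · rw [List.any_eq_true] at hb
      obtain ⟨l, hl', h1⟩ := hb
      simp only [Bool.and_eq_true] at h1
      obtain ⟨h2, h3, h4, h5⟩ := h1
      rcases hsw with rfl | ⟨h6, h7⟩
      · simp at hl'
      · exact TrR_swap H C hl h6 h7 h (fun i hi => blt_lt (List.all_eq_true.1 h2 i hi)) (Nat.eq_of_beq_eq_true h3)
          (Nat.eq_of_beq_eq_true h4) (zeq_iff h5)

/-- the lifted system, general certificate -/
theorem exists_pre_chk {M : ℕ} (hM : BigF F M) (h1 : 1 ≤ M) (hc : chkT D M = true)
    (hself : ∀ k < D.nroots, TrR H C k k) : ∃ P : PreSt H F Γ, P.θ = (D.group F).subtype.comp σ := by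
  unfold chkT at hc
  rw [Bool.and_eq_true, Bool.and_eq_true] at hc
  obtain ⟨ha, hb, hc⟩ := hc
  have hM1 : BigF F 1 := fun m h2 h3 => hM m h2 (h3.trans h1)
  refine exists_pre_T C (fun r hr s hs h2 h3 => indB_iff H hr hs (allP_imp H ha hr hs h2 h3))
    (fun k hk => torX_F H hM1 hk (allN_imp hb hk)) hself
    (fun r hr s hs h2 h3 => Or.inl (torB_F H hM hr hs (allP_imp H hc hr hs h2 h3)))

/-- the lifted system over three elements -/
theorem exists_pre_chk3 (hM : BigF F 1) (hc : chkT3 D = true)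
    (htr : ∀ {r s : ℕ}, CP D r s → TrR H C r s) (hself : ∀ k < D.nroots, CP D k k) :
    ∃ P : PreSt H F Γ, P.θ = (D.group F).subtype.comp σ := by
  unfold chkT3 at hc
  rw [Bool.and_eq_true, Bool.and_eq_true] at hc
  obtain ⟨ha, hb, hc⟩ := hc
  refine exists_pre_T C (fun r hr s hs h2 h3 => indB_iff H hr hs (allP_imp H ha hr hs h2 h3))
    (fun k hk => torX_F H hM hk (allN_imp hb hk)) (fun k hk => htr (hself k hk))
    (fun r hr s hs h2 h3 => ?_)
  have h4 := allP_imp H hc hr hs h2 h3
  rw [Bool.or_eq_true] at h4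
  rcases h4 with h4 | h4
  · exact Or.inl (torB_F H hM hr hs h4)
  · have h5 := CP_of_chk H.toGood1 hr hs h4
    exact Or.inr ⟨h5.2.2.2, htr h5⟩

/-- self-pairings, large field -/
lemma self_of_full (hb : allN D.nroots (torX D 1) = true) (hcp : allN D.nroots (fun k => cpB D k k) = true)
    (hF : ∃ s : Finset F, 4 < s.card) : ∀ k < D.nroots, TrR H C k k := by
  intro k hk
  obtain ⟨γ, hγ, h1, h2⟩ := torX_iff H hk (allN_imp hb hk)
  obtain ⟨c, d, hc, hd, hcd, hq⟩ := exists_full hF
  exact TrR_full H C (CP_of_chk H.toGood1 hk hk (allN_imp hcp hk)) hγ (by omega) hc hd hcd hq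

end

/-! ### the types -/

theorem chkT_G2 : chkT chevG2 3 = true := by decide +kernel
theorem chkT_D4 : chkT chevD4 2 = true := by decide +kernel
theorem chkT_F4 : chkT chevF4 2 = true := by decide +kernel
theorem chkT3_D4 : chkT3 chevD4 = true := by decide +kernel
theorem chkT3_F4 : chkT3 chevF4 = true := by decide +kernel
theorem chkQ2_D4 : chkQ chevD4 2 [(14, 22)] [] = true := by decide +kernel
theorem chkQ2_F4 : chkQ chevF4 2 [(33, 40), (24, 46)] [] = true := by decide +kernel
theorem chkQ1_D4 : chkQ chevD4 1 [(14, 22)] [[1, 2, 0, 1], [1, 3, 0, 1], [1, 3, 2, 1]] = true := by decide +kernel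
theorem chkQ1_F4 : chkQ chevF4 1 [(33, 40), (24, 46)] [[3, 2, 1, 2, 3]] = true := by decide +kernel
theorem chkCP_G2 : allN chevG2.nroots (fun k => cpB chevG2 k k) = true := by decide +kernel
theorem chkCP_D4 : allN chevD4.nroots (fun k => cpB chevD4 k k) = true := by decide +kernel
theorem chkCP_F4 : allN chevF4.nroots (fun k => cpB chevF4 k k) = true := by decide +kernel

/-- check of the chain lengths -/
def chkL2 (D : ChevalleyDatum) : Bool :=
  allN D.nroots fun r => (D.chain.getD r #[]).toList.all fun e => Nat.ble e.2.toList.length 2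

lemma len2_of_chk {D : ChevalleyDatum} (H : Good1 D) (h : chkL2 D = true) : Len2 D := by
  intro r s
  by_cases hne : D.chainEntry r s = []
  · rw [hne]; simp
  · have hr := (H.key_lt r s hne).1
    have h := allN_imp h hr
    rw [List.all_eq_true] at h
    unfold ChevalleyDatum.chainEntry at hne ⊢
    cases hf : (D.chain.getD r #[]).toList.find? (fun e => e.1 = s) with
    | none => rw [hf] at hne; exact absurd rfl hne
    | some e => exact Nat.le_of_ble_eq_true (h e (List.mem_of_find?_eq_some hf))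

theorem len2_D4 : Len2 chevD4 := len2_of_chk good1_D4 (by decide +kernel)
theorem len2_F4 : Len2 chevF4 := len2_of_chk good1_F4 (by decide +kernel)

lemma three_of {F : Type*} [Field F] (h2 : ∃ s : Finset F, 2 < s.card) (h3 : ¬ ∃ s : Finset F, 3 < s.card) :
    (3 : F) = 0 ∧ ∀ t : F, t = 0 ∨ t = 1 ∨ t = -1 := by
  classical
  have hne : (1 : F) ≠ -1 := by
    intro h
    obtain ⟨s, hs⟩ := h2
    have h4 : ∃ c ∈ s, c ≠ 0 ∧ c ≠ 1 := by
      by_contra hcon
      push Not at hcon
      have : s ⊆ {0, 1} := by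
        intro c hc
        by_cases h0 : c = 0
        · simp [h0]
        · simp [hcon c hc h0]
      have := Finset.card_le_card this
      have h5 : ({0, 1} : Finset F).card ≤ 2 := Finset.card_le_two
      omega
    obtain ⟨c, -, hc0, hc1⟩ := h4
    apply h3
    refine ⟨{0, 1, c, c + 1}, ?_⟩
    have e1 : c + 1 ≠ 0 := fun h5 => hc1 (by linear_combination h5 - h)
    rw [Finset.card_insert_of_notMem, Finset.card_insert_of_notMem, Finset.card_insert_of_notMem, Finset.card_singleton]
    · norm_num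
    · rw [Finset.mem_singleton]
      intro h5
      exact one_ne_zero (by linear_combination -h5)
    · rw [Finset.mem_insert, Finset.mem_singleton]
      rintro (h5 | h5)
      · exact hc1 h5.symm
      · exact hc0 (by linear_combination -h5)
    · rw [Finset.mem_insert, Finset.mem_insert, Finset.mem_singleton]
      rintro (h5 | h5 | h5)
      · exact zero_ne_one h5
      · exact hc0 h5.symm
      · exact e1 h5.symm
  have hall : ∀ t : F, t = 0 ∨ t = 1 ∨ t = -1 := by
    intro t
    by_contra hcon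
    push Not at hcon
    obtain ⟨h4, h5, h6⟩ := hcon
    apply h3
    refine ⟨{0, 1, -1, t}, ?_⟩
    rw [Finset.card_insert_of_notMem, Finset.card_insert_of_notMem, Finset.card_insert_of_notMem, Finset.card_singleton]
    · norm_num
    · rw [Finset.mem_singleton]; exact h6.symm
    · rw [Finset.mem_insert, Finset.mem_singleton]
      rintro (h7 | h7)
      · exact hne h7
      · exact h5 h7.symm
    · rw [Finset.mem_insert, Finset.mem_insert, Finset.mem_singleton]
      rintro (h7 | h7 | h7)
      · exact zero_ne_one h7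
      · exact one_ne_zero (neg_eq_zero.1 h7.symm)
      · exact h4 h7.symm
  refine ⟨?_, hall⟩
  rcases hall 2 with h | h | h
  · exact absurd (by linear_combination h) hne
  · exact absurd (by linear_combination h) (one_ne_zero (α := F))
  · linear_combination h

section

variable {F : Type*} [Field F] {Γ : Type*} [Group Γ]

theorem exists_pre_G2 (hF : ∃ s : Finset F, 4 < s.card) {σ : Γ →* ↥(chevG2.group F)} (C : CE σ) (H : Good chevG2) :
    ∃ P : PreSt H F Γ, P.θ = (chevG2.group F).subtype.comp σ := by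
  have hc := chkT_G2
  refine exists_pre_chk C (BigF.of_finset hF) (by norm_num) hc (self_of_full C ?_ chkCP_G2 hF)
  unfold chkT at hc
  rw [Bool.and_eq_true, Bool.and_eq_true] at hc
  exact hc.2.1

theorem exists_pre_4 {D : ChevalleyDatum} (H : Good D) (hl : Len2 D) {dec : List (ℕ × ℕ)} {sw : List (List ℕ)}
    (h2 : chkT D 2 = true) (h3 : chkT3 D = true) (hq2 : chkQ D 2 dec [] = true) (hq1 : chkQ D 1 dec sw = true)
    (hcp : allN D.nroots (fun k => cpB D k k) = true)
    (hF : ∃ s : Finset F, 2 < s.card) {σ : Γ →* ↥(D.group F)} (C : CE σ) :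
    ∃ P : PreSt H F Γ, P.θ = (D.group F).subtype.comp σ := by
  have hcp' : ∀ k < D.nroots, CP D k k := fun k hk => CP_of_chk H.toGood1 hk hk (allN_imp hcp hk)
  by_cases h4 : ∃ s : Finset F, 3 < s.card
  · have hB : BigF F 2 := BigF.of_finset h4
    exact exists_pre_chk C hB (by norm_num) h2 (fun k hk => trR_of_chk C hl hB (Or.inl rfl) hq2 (hcp' k hk))
  · have hB : BigF F 1 := BigF.of_finset hF
    exact exists_pre_chk3 C hB h3 (fun h => trR_of_chk C hl hB (Or.inr (three_of hF h4)) hq1 h) hcp'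

theorem exists_pre_D4 (hF : ∃ s : Finset F, 2 < s.card) {σ : Γ →* ↥(chevD4.group F)} (C : CE σ) (H : Good chevD4) :
    ∃ P : PreSt H F Γ, P.θ = (chevD4.group F).subtype.comp σ :=
  exists_pre_4 H len2_D4 chkT_D4 chkT3_D4 chkQ2_D4 chkQ1_D4 chkCP_D4 hF C

theorem exists_pre_F4 (hF : ∃ s : Finset F, 2 < s.card) {σ : Γ →* ↥(chevF4.group F)} (C : CE σ) (H : Good chevF4) :
    ∃ P : PreSt H F Γ, P.θ = (chevF4.group F).subtype.comp σ :=
  exists_pre_4 H len2_F4 chkT_F4 chkT3_F4 chkQ2_F4 chkQ1_F4 chkCP_F4 hF C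

end

end Cfsg.Agent.Mult
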