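import Cfsg.Agent.Mult.Tor

set_option autoImplicit false

/-!
The lifted Steinberg relations: assembly for types with a torus.
-/

namespace Cfsg.Agent.Mult

open Cfsg.Lie Cfsg.Agent.Chev Cfsg.Agent.ChevTw Cfsg.Agent.ChevGrp Cfsg.Agent.Steinb
open scoped commutatorElement

variable {D : ChevalleyDatum}

/-- two independent roots are positive for some regular functional -/
lemma exists_kf (H : Good D) {r s : ℕ} (hr : r < D.nroots) (hs : s < D.nroots) (h4 : pr D r s * pr D s r < 4) :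
    ∃ κ : ℕ → ℤ, KF D κ ∧ 0 < κ r ∧ 0 < κ s := by
  have K0 := kf_ordv H.toGood1
  obtain ⟨B1, hB1⟩ := PX.exists_bound (ordv D) D.nroots
  obtain ⟨B2, hB2⟩ := PX.exists_bound (fun k => - ordv D k) D.nroots
  set α : ℤ := 2 - pr D s r with hα
  set β : ℤ := 2 - pr D r s with hβ
  let κ0 : ℕ → ℤ := fun x => ∑ j ∈ Finset.range D.rank, vec D x j * (α * pr D r (D.simple j) + β * pr D s (D.simple j))
  have hκ0 : ∀ x < D.nroots, κ0 x = α * pr D r x + β * pr D s x := by
    intro x hx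
    show ∑ j ∈ Finset.range D.rank, vec D x j * (α * pr D r (D.simple j) + β * pr D s (D.simple j)) = _
    rw [pr_lin H.toGood1 (r := r) hx, pr_lin H.toGood1 (r := s) hx, Finset.mul_sum, Finset.mul_sum, ← Finset.sum_add_distrib]
    apply Finset.sum_congr rfl
    intro j _; ring
  have hself : ∀ x < D.nroots, pr D x x = 2 := fun x hx => H.pair_self x hx
  have hr0 : 0 < κ0 r := by
    rw [hκ0 r hr, hself r hr, hα, hβ]; nlinarith
  have hs0 : 0 < κ0 s := by
    rw [hκ0 s hs, hself s hs, hα, hβ]; nlinarith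
  set M : ℤ := |B1| + |B2| + 1 with hM
  have hb1 : ∀ x < D.nroots, ordv D x < |B1| + 1 := fun x hx => by
    have := hB1 x hx
    have := le_abs_self B1
    omega
  have hb2 : ∀ x < D.nroots, - ordv D x < |B2| + 1 := fun x hx => by
    have : - ordv D x < B2 := hB2 x hx
    have := le_abs_self B2
    omega
  have hB1' := abs_nonneg B1
  have hB2' := abs_nonneg B2
  have hz : ∀ z : ℤ, |M * z| < M → z = 0 := by
    intro z hz
    rw [abs_mul, abs_of_pos (by omega : (0 : ℤ) < M)] at hz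
    by_contra h0
    have : 1 ≤ |z| := Int.one_le_abs h0
    nlinarith
  refine ⟨fun x => M * κ0 x + ordv D x, ⟨?_, ?_, ?_⟩, ?_, ?_⟩
  · intro a b c x y h
    have h1 := ordv_lin h
    have h2 : κ0 c = x * κ0 a + y * κ0 b := by
      show ∑ j ∈ Finset.range D.rank, vec D c j * _ = x * ∑ j ∈ Finset.range D.rank, vec D a j * _ +
        y * ∑ j ∈ Finset.range D.rank, vec D b j * _
      rw [Finset.mul_sum, Finset.mul_sum, ← Finset.sum_add_distrib]
      apply Finset.sum_congr rfl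
      intro j hj
      rw [h j (Finset.mem_range.1 hj)]; ring
    show M * κ0 c + ordv D c = _
    rw [h1, h2]; ring
  · intro a b ha hb h
    have h : M * κ0 a + ordv D a = M * κ0 b + ordv D b := h
    have e : M * (κ0 a - κ0 b) = ordv D b - ordv D a := by linarith
    have h0 : κ0 a - κ0 b = 0 := by
      apply hz
      rw [e, abs_lt]
      have := hb1 a ha
      have := hb1 b hb
      have := hb2 a ha
      have := hb2 b hb
      constructor <;> omega
    rw [h0, mul_zero] at e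
    exact K0.inj ha hb (by linarith)
  · intro a ha h
    have h : M * κ0 a + ordv D a = 0 := h
    have e : M * κ0 a = - ordv D a := by linarith
    have h0 : κ0 a = 0 := by
      apply hz
      rw [e, abs_lt]
      have := hb1 a ha
      have := hb2 a ha
      constructor <;> omega
    rw [h0, mul_zero] at e
    exact K0.ne ha (by linarith)
  · show 0 < M * κ0 r + ordv D r
    have := hb2 r hr
    nlinarith
  · show 0 < M * κ0 s + ordv D s
    have := hb2 s hs
    nlinarith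

variable {H : Good D} {F : Type*} [Field F] {Γ : Type*} [Group Γ]

namespace PX

variable {P : PX H F Γ}

lemma conj_prod (g : Γ) (l : List Γ) : g * l.prod * g⁻¹ = (l.map fun x => g * x * g⁻¹).prod := by
  induction l with
  | nil => simp
  | cons a l ih => rw [List.prod_cons, List.map_cons, List.prod_cons, ← ih]; group

/-- conjugation of the defect by a torus element -/
lemma conj_defect {r s : ℕ} (hr : r < D.nroots) (hs : s < D.nroots) (h1 : s ≠ r) (h2 : s ≠ D.neg r) {g : Γ} {γ : ℕ}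
    {c : F} (hc : c ≠ 0) (hg : ∀ k < D.nroots, ∀ t : F, g * P.x k t * g⁻¹ = P.x k (c ^ pr D γ k * t)) (t u : F) :
    g * P.defect r s t u * g⁻¹ = P.defect r s (c ^ pr D γ r * t) (c ^ pr D γ s * u) := by
  have hwd : g * P.wd (D.commWord F r s t u) * g⁻¹ = P.wd (D.commWord F r s (c ^ pr D γ r * t) (c ^ pr D γ s * u)) := by
    unfold wd ChevalleyDatum.commWord
    rw [conj_prod, List.map_map, List.map_map, List.map_map]
    congr 1
    apply List.map_congr_left
    intro a ha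
    obtain ⟨a1, a2, a3, a4⟩ := (H.pairOK hr hs h1 h2).terms a ha
    simp only [Function.comp]
    rw [hg _ a1]
    congr 1
    have e : pr D γ a.1 = (a.2.2.1 : ℤ) * pr D γ r + (a.2.2.2 : ℤ) * pr D γ s := by
      rw [pr_lin H.toGood1 (r := γ) a1, pr_lin H.toGood1 (r := γ) hr, pr_lin H.toGood1 (r := γ) hs, Finset.mul_sum,
        Finset.mul_sum, ← Finset.sum_add_distrib]
      apply Finset.sum_congr rfl
      intro j hj
      rw [a4 j (Finset.mem_range.1 hj)]; ring
    rw [e, zpow_add₀ hc, mul_comm (a.2.2.1 : ℤ), mul_comm (a.2.2.2 : ℤ), zpow_mul, zpow_mul, zpow_natCast, zpow_natCast,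
      neg_mul_eq_mul_neg, mul_pow, mul_pow]
    ring
  unfold defect com
  rw [← hg r hr, ← hg s hs, ← hwd]
  group

/-- the torus kills bimultiplicative defects -/
lemma kill_torus (hker : P.θ.ker ≤ Subgroup.center Γ) {r s : ℕ} (hr : r < D.nroots) (hs : s < D.nroots) (h1 : s ≠ r)
    (h2 : s ≠ D.neg r) {g : Γ} {γ : ℕ}
    {c : F} (hc : c ≠ 0) (hg : ∀ k < D.nroots, ∀ t : F, g * P.x k t * g⁻¹ = P.x k (c ^ pr D γ k * t))
    (h3 : (pr D γ r = 0 ∧ c ^ pr D γ s ≠ 1) ∨ (pr D γ s = 0 ∧ c ^ pr D γ r ≠ 1)) : P.Kill r s := by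
  intro hl hr' t u
  have hb : BiA (P.defect r s) := ⟨hl, hr'⟩
  have hinv : ∀ t u, P.defect r s (c ^ pr D γ r * t) (c ^ pr D γ s * u) = P.defect r s t u := by
    intro t u
    rw [← conj_defect hr hs h1 h2 hc hg]
    have := Subgroup.mem_center_iff.1 (hker ((MonoidHom.mem_ker).2 (P.θ_defect hr hs h1 h2 t u))) g
    rw [this, mul_inv_cancel_right]
  rcases h3 with ⟨h3, h4⟩ | ⟨h3, h4⟩
  · refine hb.kill_right h4 (fun t u => ?_) t u
    have := hinv t u
    rwa [h3, zpow_zero, one_mul] at this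
  · refine hb.kill_left h4 (fun t u => ?_) t u
    have := hinv t u
    rwa [h3, zpow_zero, one_mul] at this

lemma kill_of_comm {r s : ℕ} (hc : D.commTerms r s = []) (h : ∀ t u, P.x r t * P.x s u = P.x s u * P.x r t) : P.Kill r s := by
  intro _ _ t u
  unfold defect com ChevalleyDatum.commWord
  rw [hc, List.map_nil, wd_nil, inv_one, mul_one, mul_assoc, ← h]
  group

end PX

/-- the lifted system of root elements -/
theorem exists_pre_T {σ : Γ →* ↥(D.group F)} (C : CE σ)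
    (hind : ∀ r < D.nroots, ∀ s < D.nroots, s ≠ r → s ≠ D.neg r → pr D r s * pr D s r < 4)
    (hx : ∀ k < D.nroots, ∃ γ < D.nroots, ∃ c : F, c ≠ 0 ∧ c ^ pr D γ k ≠ 1)
    (hself : ∀ k < D.nroots, TrR H C k k)
    (hpair : ∀ r < D.nroots, ∀ s < D.nroots, s ≠ r → s ≠ D.neg r →
      (∃ γ < D.nroots, ∃ c : F, c ≠ 0 ∧ ((pr D γ r = 0 ∧ c ^ pr D γ s ≠ 1) ∨ (pr D γ s = 0 ∧ c ^ pr D γ r ≠ 1))) ∨
      (D.commTerms r s = [] ∧ TrR H C r s)) :
    ∃ P : PreSt H F Γ, P.θ = (D.group F).subtype.comp σ := by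
  obtain ⟨P, hθ, hσ, htor⟩ := exists_PX H C hx hself
  have hker : P.θ.ker ≤ Subgroup.center Γ := by
    intro x hx
    have h1 : (D.group F).subtype (σ x) = 1 := by
      rw [MonoidHom.mem_ker, hθ] at hx; exact hx
    exact C.2 (Subtype.ext h1)
  have hkill : ∀ r < D.nroots, ∀ s < D.nroots, s ≠ r → s ≠ D.neg r → P.Kill r s := by
    intro r hr s hs h1 h2
    rcases hpair r hr s hs h1 h2 with ⟨γ, hγ, c, hc, h3⟩ | ⟨h3, h4⟩
    · refine PX.kill_torus hker hr hs h1 h2 (g := C.y (hG H.toGood2 γ c)) hc (fun k hk t => ?_) h3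
      rw [← C.cj_apply (C.σ_y _)]
      exact htor γ hγ c hc k hk t
    · refine PX.kill_of_comm h3 fun t u => ?_
      exact (C.tr_iff' (hσ r hr t) (hσ s hs u)).1 (h4 t u)
  refine ⟨{ x := P.x, add := P.add, comm := ?_, θ := P.θ, θ_x := P.θ_x }, hθ⟩
  intro r s hr hs h1 h2 t u
  obtain ⟨κ, K, hr0, hs0⟩ := exists_kf H hr hs (hind r hr s hs h1 h2)
  exact P.R2_pos hker K hkill r hr s hs hr0 hs0 h1 t u

/-! ### checks -/

/-- fast pairing -/
def prF (D : ChevalleyDatum) (r s : ℕ) : ℤ := sumN D.rank fun i => ccF D r i * cartF D i s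

lemma prF_eq (H : Good D) {r s : ℕ} (hr : r < D.nroots) (hs : s < D.nroots) : prF D r s = pr D r s := by
  unfold prF pr
  rw [sumN_eq]
  apply Finset.sum_congr rfl
  intro i hi
  rw [H.ccE r hr i (Finset.mem_range.1 hi), H.cart i (Finset.mem_range.1 hi) s hs]

/-- `1 ≤ |z| ≤ M` -/
def smB (M : ℕ) (z : ℤ) : Bool := Nat.blt 0 z.natAbs && Nat.ble z.natAbs M

/-- torus certificate for a pair -/
def torB (D : ChevalleyDatum) (M r s : ℕ) : Bool :=
  !(allN D.nroots fun γ => !((zeq (prF D γ r) 0 && smB M (prF D γ s)) || (zeq (prF D γ s) 0 && smB M (prF D γ r))))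

/-- torus certificate for a root -/
def torX (D : ChevalleyDatum) (M k : ℕ) : Bool := !(allN D.nroots fun γ => !(smB M (prF D γ k)))

/-- independence -/
def indB (D : ChevalleyDatum) (r s : ℕ) : Bool := Nat.blt (prF D r s * prF D s r).toNat 4

/-- the field has elements with nontrivial small powers -/
def BigF (F : Type*) [Field F] (M : ℕ) : Prop := ∀ m : ℤ, 1 ≤ m.natAbs → m.natAbs ≤ M → ∃ c : F, c ≠ 0 ∧ c ^ m ≠ 1

lemma smB_iff {M : ℕ} {z : ℤ} (h : smB M z = true) : 1 ≤ z.natAbs ∧ z.natAbs ≤ M := by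
  unfold smB at h
  rw [Bool.and_eq_true] at h
  exact ⟨blt_lt h.1, Nat.le_of_ble_eq_true h.2⟩

lemma torB_iff (H : Good D) {M : ℕ} {r s : ℕ} (hr : r < D.nroots) (hs : s < D.nroots) (h : torB D M r s = true) :
    ∃ γ < D.nroots, (pr D γ r = 0 ∧ 1 ≤ (pr D γ s).natAbs ∧ (pr D γ s).natAbs ≤ M) ∨
      (pr D γ s = 0 ∧ 1 ≤ (pr D γ r).natAbs ∧ (pr D γ r).natAbs ≤ M) := by
  unfold torB at h
  rw [Bool.not_eq_true', ← Bool.not_eq_true, allN_iff] at h
  push Not at h
  obtain ⟨γ, hγ, h5⟩ := h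
  rw [ne_eq, Bool.not_eq_true', Bool.not_eq_false, Bool.or_eq_true, Bool.and_eq_true, Bool.and_eq_true] at h5
  refine ⟨γ, hγ, ?_⟩
  rcases h5 with ⟨h5, h6⟩ | ⟨h5, h6⟩
  · left
    rw [prF_eq H hγ hr] at h5
    rw [prF_eq H hγ hs] at h6
    exact ⟨zeq_iff h5, smB_iff h6⟩
  · right
    rw [prF_eq H hγ hs] at h5
    rw [prF_eq H hγ hr] at h6
    exact ⟨zeq_iff h5, smB_iff h6⟩

lemma torX_iff (H : Good D) {M : ℕ} {k : ℕ} (hk : k < D.nroots) (h : torX D M k = true) :
    ∃ γ < D.nroots, 1 ≤ (pr D γ k).natAbs ∧ (pr D γ k).natAbs ≤ M := by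
  unfold torX at h
  rw [Bool.not_eq_true', ← Bool.not_eq_true, allN_iff] at h
  push Not at h
  obtain ⟨γ, hγ, h5⟩ := h
  rw [ne_eq, Bool.not_eq_true', Bool.not_eq_false] at h5
  rw [prF_eq H hγ hk] at h5
  exact ⟨γ, hγ, smB_iff h5⟩

lemma torB_F (H : Good D) {M : ℕ} (hF : BigF F M) {r s : ℕ} (hr : r < D.nroots) (hs : s < D.nroots) (h : torB D M r s = true) :
    ∃ γ < D.nroots, ∃ c : F, c ≠ 0 ∧ ((pr D γ r = 0 ∧ c ^ pr D γ s ≠ 1) ∨ (pr D γ s = 0 ∧ c ^ pr D γ r ≠ 1)) := by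
  obtain ⟨γ, hγ, ⟨h1, h2, h3⟩ | ⟨h1, h2, h3⟩⟩ := torB_iff H hr hs h
  · obtain ⟨c, hc, h4⟩ := hF _ h2 h3
    exact ⟨γ, hγ, c, hc, Or.inl ⟨h1, h4⟩⟩
  · obtain ⟨c, hc, h4⟩ := hF _ h2 h3
    exact ⟨γ, hγ, c, hc, Or.inr ⟨h1, h4⟩⟩

lemma torX_F (H : Good D) {M : ℕ} (hF : BigF F M) {k : ℕ} (hk : k < D.nroots) (h : torX D M k = true) :
    ∃ γ < D.nroots, ∃ c : F, c ≠ 0 ∧ c ^ pr D γ k ≠ 1 := by
  obtain ⟨γ, hγ, h1, h2⟩ := torX_iff H hk h
  obtain ⟨c, hc, h3⟩ := hF _ h1 h2
  exact ⟨γ, hγ, c, hc, h3⟩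

lemma indB_iff (H : Good D) {r s : ℕ} (hr : r < D.nroots) (hs : s < D.nroots) (h : indB D r s = true) :
    pr D r s * pr D s r < 4 := by
  unfold indB at h
  rw [prF_eq H hr hs, prF_eq H hs hr] at h
  have := blt_lt h
  omega

/-- all pairs of independent roots -/
def allP (D : ChevalleyDatum) (f : ℕ → ℕ → Bool) : Bool :=
  allN D.nroots fun r => allN D.nroots fun s => Nat.beq s r || (Nat.beq (Nat.succ (Nat.add s r)) D.nroots || f r s)

lemma allP_imp (H : Good D) {f : ℕ → ℕ → Bool} (h : allP D f = true) {r s : ℕ} (hr : r < D.nroots) (hs : s < D.nroots)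
    (h1 : s ≠ r) (h2 : s ≠ D.neg r) : f r s = true := by
  have h3 := allN_imp (allN_imp h hr) hs
  rw [Bool.or_eq_true, Bool.or_eq_true] at h3
  rcases h3 with h3 | h3 | h3
  · exact absurd (Nat.eq_of_beq_eq_true h3) h1
  · exfalso
    apply h2
    rw [H.neg_eq r hr]
    have e := Nat.eq_of_beq_eq_true h3
    have e : Nat.succ (s + r) = D.nroots := e
    omega
  · exact h3

lemma BigF.of_finset {M : ℕ} (h : ∃ s : Finset F, M + 1 < s.card) : BigF F M := by
  intro m hm hM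
  have key : ∀ n : ℕ, 1 ≤ n → n ≤ M → ∃ c : F, c ≠ 0 ∧ c ^ n ≠ 1 := by
    intro n hn hn'
    by_contra hcon
    push Not at hcon
    obtain ⟨s, hs⟩ := h
    have h1 : (Polynomial.X ^ (n + 1) - Polynomial.X : Polynomial F) = 0 := by
      apply Polynomial.eq_zero_of_natDegree_lt_card_of_eval_eq_zero' _ s
      · intro c _
        rw [Polynomial.eval_sub, Polynomial.eval_pow, Polynomial.eval_X]
        by_cases hc : c = 0
        · rw [hc]; simp
        · rw [pow_succ, hcon c hc, one_mul, sub_self]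
      · refine lt_of_le_of_lt (Polynomial.natDegree_sub_le _ _) ?_
        rw [Polynomial.natDegree_X_pow, Polynomial.natDegree_X]
        omega
    have h2 := congrArg (fun p => Polynomial.coeff p 1) h1
    simp only [Polynomial.coeff_sub, Polynomial.coeff_X_pow, Polynomial.coeff_X_one, Polynomial.coeff_zero] at h2
    rw [if_neg (by omega)] at h2
    simp at h2
  obtain ⟨c, hc, h1⟩ := key _ hm hM
  refine ⟨c, hc, ?_⟩
  rcases Int.natAbs_eq m with h2 | h2
  · rw [h2, zpow_natCast]; exact h1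
  · rw [h2, zpow_neg, zpow_natCast]
    exact fun h => h1 (inv_eq_one.1 h)

lemma exists_full (h : ∃ s : Finset F, 4 < s.card) :
    ∃ c d : F, c ≠ 0 ∧ d ≠ 0 ∧ c + d ≠ 0 ∧ (c + d) ^ 2 ≠ c * d := by
  by_contra hcon
  push Not at hcon
  obtain ⟨s, hs⟩ := h
  have h1 : (Polynomial.X * (Polynomial.X + 1) * (Polynomial.X ^ 2 + Polynomial.X + 1) : Polynomial F) = 0 := by
    apply Polynomial.eq_zero_of_natDegree_lt_card_of_eval_eq_zero' _ s
    · intro c _
      simp only [Polynomial.eval_mul, Polynomial.eval_add, Polynomial.eval_pow, Polynomial.eval_X, Polynomial.eval_one]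
      by_cases hc : c = 0
      · rw [hc]; simp
      · by_cases hc1 : c + 1 = 0
        · rw [hc1]; simp
        · have := hcon c 1 hc one_ne_zero hc1
          have e : c ^ 2 + c + 1 = 0 := by linear_combination this
          rw [e, mul_zero]
    · refine lt_of_le_of_lt ?_ hs
      refine Polynomial.natDegree_mul_le.trans ?_
      have h2 : (Polynomial.X * (Polynomial.X + 1) : Polynomial F).natDegree ≤ 2 := by
        compute_degree
      have h3 : (Polynomial.X ^ 2 + Polynomial.X + 1 : Polynomial F).natDegree ≤ 2 := by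
        compute_degree
      omega
  have h2 := congrArg (fun p => Polynomial.coeff p 4) h1
  have h5 : (Polynomial.X * (Polynomial.X + 1) * (Polynomial.X ^ 2 + Polynomial.X + 1) : Polynomial F) =
      Polynomial.X ^ 4 + Polynomial.C 2 * Polynomial.X ^ 3 + Polynomial.C 2 * Polynomial.X ^ 2 + Polynomial.X := by
    simp only [map_ofNat]
    ring
  rw [h5] at h2
  simp [Polynomial.coeff_X_pow, Polynomial.coeff_X] at h2

end Cfsg.Agent.Mult
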