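import Cfsg.Agent.Mult.Part
import Cfsg.Agent.Mult.LiftSL

set_option autoImplicit false

/-!
Lifting of the Steinberg relations to central extensions with the help of the torus.
-/

namespace Cfsg.Agent.Mult

open Cfsg.Lie Cfsg.Agent.Chev Cfsg.Agent.ChevTw Cfsg.Agent.ChevGrp Cfsg.Agent.Steinb
open scoped commutatorElement

/-! ### bimultiplicative functions -/

/-- bimultiplicative -/
structure BiA {F Γ : Type*} [Field F] [Group Γ] (f : F → F → Γ) : Prop where
  l : ∀ t t' u, f (t + t') u = f t u * f t' u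
  r : ∀ t u u', f t (u + u') = f t u * f t u'

namespace BiA

variable {F Γ : Type*} [Field F] [Group Γ] {f : F → F → Γ} (h : BiA f)
include h

lemma zero_left (u : F) : f 0 u = 1 := by
  have := h.l 0 0 u
  rw [add_zero] at this
  exact mul_eq_left.1 this.symm

lemma zero_right (t : F) : f t 0 = 1 := by
  have := h.r t 0 0
  rw [add_zero] at this
  exact mul_eq_left.1 this.symm

lemma neg_left (t u : F) : f (-t) u = (f t u)⁻¹ := by
  rw [eq_inv_iff_mul_eq_one, ← h.l, neg_add_cancel, h.zero_left]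

lemma neg_right (t u : F) : f t (-u) = (f t u)⁻¹ := by
  rw [eq_inv_iff_mul_eq_one, ← h.r, neg_add_cancel, h.zero_right]

lemma kill_right {e : F} (he : e ≠ 1) (hf : ∀ t u, f t (e * u) = f t u) (t u : F) : f t u = 1 := by
  have h0 : e - 1 ≠ 0 := sub_ne_zero.2 he
  have e1 : u = e * ((e - 1)⁻¹ * u) + -((e - 1)⁻¹ * u) := by field_simp; ring
  rw [e1, h.r, hf, h.neg_right, mul_inv_cancel]

lemma kill_left {e : F} (he : e ≠ 1) (hf : ∀ t u, f (e * t) u = f t u) (t u : F) : f t u = 1 := by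
  have h0 : e - 1 ≠ 0 := sub_ne_zero.2 he
  have e1 : t = e * ((e - 1)⁻¹ * t) + -((e - 1)⁻¹ * t) := by field_simp; ring
  rw [e1, h.l, hf, h.neg_left, mul_inv_cancel]

lemma kill_full (hf : ∀ c : F, c ≠ 0 → ∀ t u, f (c * t) (c * u) = f t u) {c d : F} (hc : c ≠ 0) (hd : d ≠ 0)
    (hcd : c + d ≠ 0) (hq : (c + d) ^ 2 ≠ c * d) (t u : F) : f t u = 1 := by
  have h1 : ∀ c : F, c ≠ 0 → ∀ t u, f (c * t) u = f t (c⁻¹ * u) := by
    intro c hc t u
    rw [← hf c hc t (c⁻¹ * u), mul_inv_cancel_left₀ hc]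
  have h2 : ∀ t u, f t (((c⁻¹ + d⁻¹) - (c + d)⁻¹) * u) = 1 := by
    intro t u
    have h3 := h1 _ hcd t u
    rw [add_mul, h.l, h1 c hc, h1 d hd, ← h.r, ← add_mul] at h3
    rw [sub_mul, sub_eq_add_neg, h.r, h.neg_right, h3, mul_inv_cancel]
  have h4 : (c⁻¹ + d⁻¹) - (c + d)⁻¹ ≠ 0 := by
    intro h5
    apply hq
    have h6 : (c⁻¹ + d⁻¹) - (c + d)⁻¹ = ((c + d) ^ 2 - c * d) / (c * d * (c + d)) := by field_simp; ring
    rw [h6, div_eq_zero_iff] at h5
    rcases h5 with h5 | h5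
    · exact sub_eq_zero.1 h5
    · exact absurd h5 (mul_ne_zero (mul_ne_zero hc hd) hcd)
  have := h2 t (((c⁻¹ + d⁻¹) - (c + d)⁻¹)⁻¹ * u)
  rwa [mul_inv_cancel_left₀ h4] at this

end BiA

/-! ### commuting pairs -/

section

variable {D : ChevalleyDatum} (H : Good D) {F : Type*} [Field F] {Γ : Type*} [Group Γ] {σ : Γ →* ↥(D.group F)} (C : CE σ)

lemma hG_comm {r s : ℕ} (hr : r < D.nroots) (hs : s < D.nroots) {c d : F} (hc : c ≠ 0) (hd : d ≠ 0) :
    hG H.toGood2 r c * hG H.toGood2 s d = hG H.toGood2 s d * hG H.toGood2 r c := by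
  apply eq_of_coe
  simp only [Subgroup.coe_mul, Units.val_mul, hG_coe, hMat_eq_hD H hr hc, hMat_eq_hD H hs hd]
  unfold hD
  rw [Matrix.diagonal_mul_diagonal, Matrix.diagonal_mul_diagonal]
  congr 1
  funext x
  exact mul_comm _ _

lemma cm_xG_bi {r s : ℕ} (h : CP D r s) : BiA fun t u : F => C.cm (xG H.toGood2 r t) (xG H.toGood2 s u) := by
  have hcen : ∀ t u : F, C.cm (xG H.toGood2 r t) (xG H.toGood2 s u) ∈ Subgroup.center Γ := by
    intro t u
    apply C.cm_mem_center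
    rw [commutatorElement_eq_one_iff_mul_comm]
    exact xG_comm' H h t u
  constructor
  · intro t t' u
    rw [xG_add H.toGood2 h.1, C.cm_mul_left, C.cj_center _ (hcen t' u)]
    exact (Subgroup.mem_center_iff.1 (hcen t u) _)
  · intro t u u'
    rw [xG_add H.toGood2 h.2.1, C.cm_mul_right, C.cj_center _ (hcen t u')]

lemma cm_xG_cj {r s : ℕ} (h : CP D r s) (g : ↥(D.group F)) (t u : F) :
    C.cm (g * xG H.toGood2 r t * g⁻¹) (g * xG H.toGood2 s u * g⁻¹) = C.cm (xG H.toGood2 r t) (xG H.toGood2 s u) := by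
  rw [← C.cj_cm, C.cj_center]
  apply C.cm_mem_center
  rw [commutatorElement_eq_one_iff_mul_comm]
  exact xG_comm' H h t u

/-- the torus kills the pairing of commuting root subgroups -/
lemma TrR_torus {r s γ : ℕ} (h : CP D r s) (hγ : γ < D.nroots) {c : F} (hc : c ≠ 0) (h1 : pr D γ r = 0)
    (h2 : c ^ pr D γ s ≠ 1) : TrR H C r s := by
  intro t u
  refine (cm_xG_bi H C h).kill_right h2 (fun t u => ?_) t u
  have := cm_xG_cj H C h (hG H.toGood2 γ c) t u
  rwa [hG_xG H hγ hc h.1, hG_xG H hγ hc h.2.1, h1, zpow_zero, one_mul] at this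

lemma TrR_torus' {r s γ : ℕ} (h : CP D r s) (hγ : γ < D.nroots) {c : F} (hc : c ≠ 0) (h1 : pr D γ s = 0)
    (h2 : c ^ pr D γ r ≠ 1) : TrR H C r s := by
  intro t u
  refine (cm_xG_bi H C h).kill_left h2 (fun t u => ?_) t u
  have := cm_xG_cj H C h (hG H.toGood2 γ c) t u
  rwa [hG_xG H hγ hc h.1, hG_xG H hγ hc h.2.1, h1, zpow_zero, one_mul] at this

lemma TrR.symm {r s : ℕ} {H : Good D} {C : CE σ} (h : TrR H C r s) : TrR H C s r := fun t u => (h u t).symm

/-- a full torus kills the self-pairing of a root subgroup -/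
lemma TrR_full {k γ : ℕ} (h : CP D k k) (hγ : γ < D.nroots) (h1 : (pr D γ k).natAbs = 1)
    {c d : F} (hc : c ≠ 0) (hd : d ≠ 0) (hcd : c + d ≠ 0) (hq : (c + d) ^ 2 ≠ c * d) : TrR H C k k := by
  intro t u
  refine (cm_xG_bi H C h).kill_full (fun e he t u => ?_) hc hd hcd hq t u
  rcases Int.natAbs_eq (pr D γ k) with h2 | h2
  · have := cm_xG_cj H C h (hG H.toGood2 γ e) t u
    rwa [hG_xG H hγ he h.1, hG_xG H hγ he h.2.1, h2, h1, Nat.cast_one, zpow_one] at this
  · have := cm_xG_cj H C h (hG H.toGood2 γ e⁻¹) t u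
    rwa [hG_xG H hγ (inv_ne_zero he) h.1, hG_xG H hγ (inv_ne_zero he) h.2.1, h2, h1, Nat.cast_one, zpow_neg_one,
      inv_inv] at this

/-- reflections of pairs -/
def wl (D : ChevalleyDatum) (l : List ℕ) (r : ℕ) : ℕ := l.foldl (fun r i => D.reflectRoot i r) r

/-- total sign -/
def el (D : ChevalleyDatum) : List ℕ → ℕ → ℤ
  | [], _ => 1
  | i :: l, r => eta D i r * el D l (D.reflectRoot i r)

lemma cm_wl (hl : Len2 D) : ∀ (l : List ℕ), (∀ i ∈ l, i < D.rank) → ∀ {r s : ℕ}, CP D r s → ∀ t u : F,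
    C.cm (xG H.toGood2 r t) (xG H.toGood2 s u) =
      C.cm (xG H.toGood2 (wl D l r) ((el D l r : ℤ) * t)) (xG H.toGood2 (wl D l s) ((el D l s : ℤ) * u))
  | [], _, r, s, h, t, u => by simp [wl, el]
  | i :: l, hl', r, s, h, t, u => by
      have hi : i < D.rank := hl' i (by simp)
      have h1 := cm_xG_cj H C h (nG H.toGood2 (D.simple i) 1) t u
      rw [nG_conj H.toGood2 hi h.1, nG_conj H.toGood2 hi h.2.1] at h1
      rw [← h1, cm_wl hl l (fun j hj => hl' j (by simp [hj])) (CP_w H.toGood2 hl hi h)]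
      simp only [wl, el, List.foldl_cons]
      push_cast
      congr 2 <;> ring

/-- over three elements a pair of commuting roots that can be swapped with sign one commutes -/
lemma TrR_swap (hl : Len2 D) (h3 : (3 : F) = 0) (hF : ∀ t : F, t = 0 ∨ t = 1 ∨ t = -1) {r s : ℕ} (h : CP D r s)
    {l : List ℕ} (hl' : ∀ i ∈ l, i < D.rank) (hr : wl D l r = s) (hs : wl D l s = r) (he : el D l r * el D l s = 1) :
    TrR H C r s := by
  have hbi := cm_xG_bi H C h
  have hone : C.cm (xG H.toGood2 r 1) (xG H.toGood2 s 1) = 1 := by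
    have h1 := cm_wl H C hl l hl' h (1 : F) 1
    rw [hr, hs] at h1
    have h1 := h1.trans (C.inv_cm _ _).symm
    have h2 : C.cm (xG H.toGood2 r ((el D l s : ℤ) * (1 : F))) (xG H.toGood2 s ((el D l r : ℤ) * (1 : F))) =
        C.cm (xG H.toGood2 r 1) (xG H.toGood2 s 1) := by
      rcases Int.isUnit_iff.1 (IsUnit.of_mul_eq_one _ he) with h4 | h4
      · rw [h4, one_mul] at he
        rw [h4, he]; simp
      · rw [h4] at he
        have h5 : el D l s = -1 := by linarith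
        have e1 := hbi.neg_left 1 (-1)
        have e2 := hbi.neg_right 1 1
        rw [h4, h5]
        simp only [Int.reduceNeg, Int.cast_neg, Int.cast_one, mul_one]
        rw [e1, e2, inv_inv]
    rw [h2] at h1
    have h4 := hbi.l (1 + 1) 1 1
    rw [hbi.l 1 1 1, show (1 : F) + 1 + 1 = 0 by linear_combination h3, hbi.zero_left] at h4
    have h5 : C.cm (xG H.toGood2 r 1) (xG H.toGood2 s 1) * C.cm (xG H.toGood2 r 1) (xG H.toGood2 s 1) = 1 := by
      nth_rewrite 1 [h1]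
      exact inv_mul_cancel _
    rw [h5, one_mul] at h4
    exact h4.symm
  intro t u
  show C.cm (xG H.toGood2 r t) (xG H.toGood2 s u) = 1
  rcases hF t with rfl | rfl | rfl
  · exact hbi.zero_left u
  · rcases hF u with rfl | rfl | rfl
    · exact hbi.zero_right _
    · exact hone
    · rw [hbi.neg_right 1 1, hone, inv_one]
  · rcases hF u with rfl | rfl | rfl
    · exact hbi.zero_right _
    · rw [hbi.neg_left 1 1, hone, inv_one]
    · rw [hbi.neg_left 1 (-1), hbi.neg_right 1 1, hone, inv_one, inv_one]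

/-! ### the lifted root elements -/

/-- lifts of the root elements defined by the torus -/
theorem exists_PX (hx : ∀ k < D.nroots, ∃ γ < D.nroots, ∃ c : F, c ≠ 0 ∧ c ^ pr D γ k ≠ 1)
    (hself : ∀ k < D.nroots, TrR H C k k) : ∃ P : PX H F Γ, P.θ = (D.group F).subtype.comp σ ∧
      (∀ k < D.nroots, ∀ t, σ (P.x k t) = xG H.toGood2 k t) ∧
      ∀ γ < D.nroots, ∀ c : F, c ≠ 0 → ∀ k < D.nroots, ∀ t, C.cj (hG H.toGood2 γ c) (P.x k t) = P.x k (c ^ pr D γ k * t) := by
  have h1 : ∀ k : ℕ, ∃ Y : F → Γ, k < D.nroots → (∀ t, σ (Y t) = xG H.toGood2 k t) ∧ (∀ t u, Y t * Y u = Y (t + u)) ∧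
      ∀ γ < D.nroots, ∀ c : F, c ≠ 0 → ∀ t, C.cj (hG H.toGood2 γ c) (Y t) = Y (c ^ pr D γ k * t) := by
    intro k
    by_cases hk : k < D.nroots
    · obtain ⟨γ, hγ, c, hc, hne⟩ := hx k hk
      have h0 : c ^ pr D γ k - 1 ≠ 0 := sub_ne_zero.2 hne
      have hσ : ∀ t, ⁅hG H.toGood2 γ c, xG H.toGood2 k ((c ^ pr D γ k - 1)⁻¹ * t)⁆ = xG H.toGood2 k t := by
        intro t
        rw [commutatorElement_def, hG_xG H hγ hc hk, xG_inv H.toGood2 hk, ← xG_add H.toGood2 hk]
        congr 1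
        rw [← sub_eq_add_neg, ← sub_one_mul, mul_inv_cancel_left₀ h0]
      refine ⟨fun t => C.cm (hG H.toGood2 γ c) (xG H.toGood2 k ((c ^ pr D γ k - 1)⁻¹ * t)), fun _ => ⟨fun t => ?_, fun t u => ?_, ?_⟩⟩
      · rw [C.σ_cm, hσ]
      · show C.cm _ _ * C.cm _ _ = C.cm _ _
        rw [mul_add, xG_add H.toGood2 hk, C.cm_mul_right]
        congr 1
        exact ((hself k hk _ u).fix (by rw [C.σ_cm, hσ])).symm
      · intro δ hδ d hd t
        show C.cj _ (C.cm _ _) = C.cm _ _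
        rw [C.cj_cm, hG_xG H hδ hd hk, hG_comm H hδ hγ hd hc, mul_inv_cancel_right]
        congr 2
        ring
    · exact ⟨fun _ => 1, fun h => absurd h hk⟩
  choose X hX using h1
  refine ⟨{ x := X, add := fun {r} hr t u => (hX r hr).2.1 t u, θ := (D.group F).subtype.comp σ, θ_x := ?_ }, rfl,
    fun k hk t => (hX k hk).1 t, fun γ hγ c hc k hk t => (hX k hk).2.2 γ hγ c hc t⟩
  intro r hr t
  show ((σ (X r t) : ↥(D.group F)) : GL D.Idx F) = _
  rw [(hX r hr).1]; rfl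

end

end Cfsg.Agent.Mult
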